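import Mathlib

/-!
# S3499, rows SU-C4 and SU-C7: `x = p ⊗ b + (1 - p) ⊗ 1`, `p` the projection on one coordinate (helper25)
-/

set_option autoImplicit false
set_option linter.unusedSectionVars false

namespace Cfsg.Agent.H25.EPU

open Matrix
open scoped Kronecker MatrixGroups

variable {F : Type} [Field F] {R J : Type} [Fintype R] [DecidableEq R] [Fintype J] [DecidableEq J]

/-- the blocks -/
def blk (M : Matrix (R × J) (R × J) F) (i j : R) : Matrix J J F := fun k l => M (i, k) (j, l)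

theorem blk_ext {M N : Matrix (R × J) (R × J) F} (h : ∀ i j, blk M i j = blk N i j) : M = N := by
  ext ⟨i, k⟩ ⟨j, l⟩
  exact congrFun (congrFun (h i j) k) l

theorem blk_kron (a : Matrix R R F) (d : Matrix J J F) (i j : R) : blk (a ⊗ₖ d) i j = a i j • d := by
  ext k l
  rfl

/-- block diagonal matrices -/
def bd (D : R → Matrix J J F) : Matrix (R × J) (R × J) F := fun p q => if p.1 = q.1 then D p.1 p.2 q.2 else 0

theorem blk_mul_bd (M : Matrix (R × J) (R × J) F) (D : R → Matrix J J F) (i j : R) :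
    blk (M * bd D) i j = blk M i j * D j := by
  ext k l
  change (M * bd D) (i, k) (j, l) = _
  rw [Matrix.mul_apply, Fintype.sum_prod_type, Finset.sum_eq_single j]
  · rw [Matrix.mul_apply]
    refine Finset.sum_congr rfl fun m _ => ?_
    simp [bd, blk]
  · intro r _ hr
    refine Finset.sum_eq_zero fun m _ => ?_
    simp [bd, hr]
  · intro h
    exact absurd (Finset.mem_univ _) h

theorem blk_bd_mul (M : Matrix (R × J) (R × J) F) (D : R → Matrix J J F) (i j : R) :
    blk (bd D * M) i j = D i * blk M i j := by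
  ext k l
  change (bd D * M) (i, k) (j, l) = _
  rw [Matrix.mul_apply, Fintype.sum_prod_type, Finset.sum_eq_single i]
  · rw [Matrix.mul_apply]
    refine Finset.sum_congr rfl fun m _ => ?_
    simp [bd, blk]
  · intro r _ hr
    refine Finset.sum_eq_zero fun m _ => ?_
    simp [bd, Ne.symm hr]
  · intro h
    exact absurd (Finset.mem_univ _) h

theorem bd_mul (D D' : R → Matrix J J F) : bd D * bd D' = bd fun i => D i * D' i := by
  apply blk_ext
  intro i j
  rw [blk_mul_bd]
  ext k l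
  by_cases h : i = j
  · subst h
    simp [blk, bd, Matrix.mul_apply]
  · simp [blk, bd, h, Matrix.mul_apply]

theorem bd_one : bd (fun _ : R => (1 : Matrix J J F)) = 1 := by
  ext ⟨i, k⟩ ⟨j, l⟩
  by_cases h : i = j
  · subst h
    simp [bd, Matrix.one_apply]
  · simp [bd, h]

theorem bd_transpose (D : R → Matrix J J F) : (bd D)ᵀ = bd fun i => (D i)ᵀ := by
  ext ⟨i, k⟩ ⟨j, l⟩
  by_cases h : i = j
  · subst h
    simp [bd]
  · simp [bd, h, Ne.symm h]

/-- the block diagonal matrix with one nontrivial block -/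
def ob (r0 : R) (b : Matrix J J F) : R → Matrix J J F := fun i => if i = r0 then b else 1

theorem ob_same (r0 : R) (b : Matrix J J F) : ob r0 b r0 = b := if_pos rfl

theorem ob_ne {r0 i : R} (h : i ≠ r0) (b : Matrix J J F) : ob r0 b i = 1 := if_neg h

theorem ob_mul (r0 : R) (b b' : Matrix J J F) : (fun i => ob r0 b i * ob r0 b' i) = ob r0 (b * b') := by
  funext i
  unfold ob
  split_ifs
  · rfl
  · rw [Matrix.one_mul]

theorem ob_one (r0 : R) : ob r0 (1 : Matrix J J F) = fun _ => 1 := by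
  funext i
  unfold ob
  split_ifs <;> rfl

/-- `x` as a unit -/
def xg (r0 : R) (b : GL J F) : GL (R × J) F where
  val := bd (ob r0 (b : Matrix J J F))
  inv := bd (ob r0 ((b⁻¹ : GL J F) : Matrix J J F))
  val_inv := by rw [bd_mul, ob_mul, ← Units.val_mul, mul_inv_cancel, Units.val_one, ob_one, bd_one]
  inv_val := by rw [bd_mul, ob_mul, ← Units.val_mul, inv_mul_cancel, Units.val_one, ob_one, bd_one]

theorem coe_xg (r0 : R) (b : GL J F) : (xg r0 b : Matrix (R × J) (R × J) F) = bd (ob r0 (b : Matrix J J F)) := rfl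

/-- the scalar on one block -/
def zg (r0 : R) (l : Fˣ) : GL R F where
  val := Matrix.diagonal fun i => if i = r0 then (l : F) else 1
  inv := Matrix.diagonal fun i => if i = r0 then ((l⁻¹ : Fˣ) : F) else 1
  val_inv := by
    rw [Matrix.diagonal_mul_diagonal, ← Matrix.diagonal_one]
    congr 1
    funext i
    split_ifs <;> simp
  inv_val := by
    rw [Matrix.diagonal_mul_diagonal, ← Matrix.diagonal_one]
    congr 1
    funext i
    split_ifs <;> simp

/-- Kronecker products of units -/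
def kg (a : GL R F) (d : GL J F) : GL (R × J) F where
  val := (a : Matrix R R F) ⊗ₖ (d : Matrix J J F)
  inv := ((a⁻¹ : GL R F) : Matrix R R F) ⊗ₖ ((d⁻¹ : GL J F) : Matrix J J F)
  val_inv := by
    rw [← Matrix.mul_kronecker_mul, ← Units.val_mul, ← Units.val_mul, mul_inv_cancel, mul_inv_cancel,
      Units.val_one, Units.val_one, Matrix.one_kronecker_one]
  inv_val := by
    rw [← Matrix.mul_kronecker_mul, ← Units.val_mul, ← Units.val_mul, inv_mul_cancel, inv_mul_cancel,
      Units.val_one, Units.val_one, Matrix.one_kronecker_one]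

theorem coe_kg (a : GL R F) (d : GL J F) : (kg a d : Matrix (R × J) (R × J) F) =
    (a : Matrix R R F) ⊗ₖ (d : Matrix J J F) := rfl

theorem kg_mul (a a' : GL R F) (d d' : GL J F) : kg a d * kg a' d' = kg (a * a') (d * d') := by
  apply Units.ext
  rw [Units.val_mul, coe_kg, coe_kg, coe_kg, ← Matrix.mul_kronecker_mul]
  rfl

theorem kg_one : kg (1 : GL R F) (1 : GL J F) = 1 := by
  apply Units.ext
  rw [coe_kg, Units.val_one, Units.val_one, Matrix.one_kronecker_one, Units.val_one]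

theorem kg_inv (a : GL R F) (d : GL J F) : (kg a d)⁻¹ = kg a⁻¹ d⁻¹ := by
  rw [inv_eq_iff_mul_eq_one, kg_mul, mul_inv_cancel, mul_inv_cancel, kg_one]

theorem exists_ne_zero_row (a : GL R F) (i : R) : ∃ j, (a : Matrix R R F) i j ≠ 0 := by
  by_contra h
  push Not at h
  have h1 : ((a : Matrix R R F) * ((a⁻¹ : GL R F) : Matrix R R F)) i i = 0 := by
    rw [Matrix.mul_apply]
    exact Finset.sum_eq_zero fun j _ => by rw [h j, zero_mul]
  rw [← Units.val_mul, mul_inv_cancel, Units.val_one, Matrix.one_apply_eq] at h1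
  exact one_ne_zero h1

theorem exists_ne_zero_col (a : GL R F) (j : R) : ∃ i, (a : Matrix R R F) i j ≠ 0 := by
  by_contra h
  push Not at h
  have h1 : (((a⁻¹ : GL R F) : Matrix R R F) * (a : Matrix R R F)) j j = 0 := by
    rw [Matrix.mul_apply]
    exact Finset.sum_eq_zero fun i _ => by rw [h i, mul_zero]
  rw [← Units.val_mul, inv_mul_cancel, Units.val_one, Matrix.one_apply_eq] at h1
  exact one_ne_zero h1

theorem coe_inv_mul' (d : GL J F) : ((d⁻¹ : GL J F) : Matrix J J F) * (d : Matrix J J F) = 1 := by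
  rw [← Units.val_mul, inv_mul_cancel, Units.val_one]

theorem coe_mul_inv' (d : GL J F) : (d : Matrix J J F) * ((d⁻¹ : GL J F) : Matrix J J F) = 1 := by
  rw [← Units.val_mul, mul_inv_cancel, Units.val_one]

/-- `α d b = β e` and `γ d = δ e`, `α, γ ≠ 0`: `b` is a scalar -/
theorem scalar_of (b d : GL J F) {e : Matrix J J F} {α β γ δ : F} (hα : α ≠ 0) (hγ : γ ≠ 0)
    (h1 : α • ((d : Matrix J J F) * (b : Matrix J J F)) = β • e) (h2 : γ • (d : Matrix J J F) = δ • e)
    (hJ : Nonempty J) : ∃ l : F, (b : Matrix J J F) = l • (1 : Matrix J J F) := by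
  have hδ : δ ≠ 0 := by
    rintro rfl
    rw [zero_smul] at h2
    have := (smul_eq_zero.1 h2).resolve_left hγ
    exact d.ne_zero this
  have h3 : e = (δ⁻¹ * γ) • (d : Matrix J J F) := by
    rw [mul_smul, h2, smul_smul, inv_mul_cancel₀ hδ, one_smul]
  refine ⟨α⁻¹ * β * (δ⁻¹ * γ), ?_⟩
  have h4 : (d : Matrix J J F) * (b : Matrix J J F) = (α⁻¹ * β * (δ⁻¹ * γ)) • (d : Matrix J J F) := by
    rw [mul_smul, mul_smul, ← h3, ← h1, smul_smul, inv_mul_cancel₀ hα, one_smul]
  calc (b : Matrix J J F) = ((d⁻¹ : GL J F) : Matrix J J F) * ((d : Matrix J J F) * (b : Matrix J J F)) := by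
        rw [← Matrix.mul_assoc, coe_inv_mul', Matrix.one_mul]
    _ = _ := by rw [h4, Matrix.mul_smul, coe_inv_mul']

/-- the two cases for `(a ⊗ d) x = x (a' ⊗ d')` -/
theorem two_cases {r0 : R} (hR : ∃ r, r ≠ r0) (hJ : Nonempty J) {b : GL J F}
    (hb : ∀ l : F, (b : Matrix J J F) ≠ l • (1 : Matrix J J F)) {a a' : GL R F} {d d' : GL J F}
    (h : kg a d * xg r0 b = xg r0 b * kg a' d') :
    ((∀ j, j ≠ r0 → (a : Matrix R R F) r0 j = 0) ∧ (∀ i, i ≠ r0 → (a : Matrix R R F) i r0 = 0) ∧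
      ∃ l : Fˣ, (d : Matrix J J F) * (b : Matrix J J F) = (l : F) • ((b : Matrix J J F) * (d : Matrix J J F))) ∨
    ((a : Matrix R R F) r0 r0 = 0 ∧ (∀ i j, i ≠ r0 → j ≠ r0 → (a : Matrix R R F) i j = 0) ∧
      ∃ l : Fˣ, (b : Matrix J J F) * (d : Matrix J J F) * (b : Matrix J J F) = (l : F) • (d : Matrix J J F)) := by
  have hE : ∀ i j, (a : Matrix R R F) i j • ((d : Matrix J J F) * ob r0 (b : Matrix J J F) j) =
      (a' : Matrix R R F) i j • (ob r0 (b : Matrix J J F) i * (d' : Matrix J J F)) := by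
    intro i j
    have h1 := congrArg (fun M : GL (R × J) F => blk (M : Matrix (R × J) (R × J) F) i j) h
    simp only [Units.val_mul, coe_kg, coe_xg] at h1
    rw [blk_mul_bd, blk_bd_mul, blk_kron, blk_kron, Matrix.smul_mul, Matrix.mul_smul] at h1
    exact h1
  have e00 := hE r0 r0
  rw [ob_same] at e00
  have e0 : ∀ j, j ≠ r0 → (a : Matrix R R F) r0 j • (d : Matrix J J F) =
      (a' : Matrix R R F) r0 j • ((b : Matrix J J F) * (d' : Matrix J J F)) := by
    intro j hj
    have := hE r0 j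
    rwa [ob_same, ob_ne hj, Matrix.mul_one] at this
  have e1 : ∀ i, i ≠ r0 → (a : Matrix R R F) i r0 • ((d : Matrix J J F) * (b : Matrix J J F)) =
      (a' : Matrix R R F) i r0 • (d' : Matrix J J F) := by
    intro i hi
    have := hE i r0
    rwa [ob_same, ob_ne hi, Matrix.one_mul] at this
  have e2 : ∀ i j, i ≠ r0 → j ≠ r0 → (a : Matrix R R F) i j • (d : Matrix J J F) =
      (a' : Matrix R R F) i j • (d' : Matrix J J F) := by
    intro i j hi hj
    have := hE i j
    rwa [ob_ne hi, ob_ne hj, Matrix.one_mul, Matrix.mul_one] at this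
  have c1 : (a : Matrix R R F) r0 r0 ≠ 0 → ∀ j, j ≠ r0 → (a : Matrix R R F) r0 j = 0 := by
    intro h00 j hj
    by_contra hne
    obtain ⟨l, hl⟩ := scalar_of b d h00 hne e00 (e0 j hj) hJ
    exact hb l hl
  have c2 : ∀ i, i ≠ r0 → (a : Matrix R R F) i r0 ≠ 0 → ∀ i' j', i' ≠ r0 → j' ≠ r0 →
      (a : Matrix R R F) i' j' = 0 := by
    intro i hi hne i' j' hi' hj'
    by_contra hne'
    obtain ⟨l, hl⟩ := scalar_of b d hne hne' (e1 i hi) (e2 i' j' hi' hj') hJ
    exact hb l hl
  -- proportionality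
  have ratio : ∀ {α β : F} {M N : Matrix J J F}, M ≠ 0 → α ≠ 0 → α • M = β • N →
      β ≠ 0 := by
    rintro α β M N hM hα hMN rfl
    rw [zero_smul] at hMN
    exact hM ((smul_eq_zero.1 hMN).resolve_left hα)
  have hd0 : (d : Matrix J J F) ≠ 0 := d.ne_zero
  have hdb0 : (d : Matrix J J F) * (b : Matrix J J F) ≠ 0 := by
    have : (d : Matrix J J F) * (b : Matrix J J F) = ((d * b : GL J F) : Matrix J J F) := rfl
    rw [this]
    exact (d * b).ne_zero
  by_cases h00 : (a : Matrix R R F) r0 r0 = 0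
  · right
    obtain ⟨j, hj⟩ := exists_ne_zero_row a r0
    have hj0 : j ≠ r0 := by rintro rfl; exact hj h00
    obtain ⟨i, hi⟩ := exists_ne_zero_col a r0
    have hi0 : i ≠ r0 := by rintro rfl; exact hi h00
    refine ⟨h00, fun i' j' => c2 i hi0 hi i' j', ?_⟩
    have f1 := e0 j hj0
    have f2 := e1 i hi0
    have g1 := ratio hd0 hj f1
    have g2 := ratio hdb0 hi f2
    -- `b d' = (a_{0j} / a'_{0j}) d`, `d' = (a_{i0}/a'_{i0}) d b`
    have k2 : (d' : Matrix J J F) = (((a' : Matrix R R F) i r0)⁻¹ * (a : Matrix R R F) i r0) •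
        ((d : Matrix J J F) * (b : Matrix J J F)) := by
      rw [mul_smul, f2, smul_smul, inv_mul_cancel₀ g2, one_smul]
    have k1 : (b : Matrix J J F) * (d' : Matrix J J F) =
        (((a' : Matrix R R F) r0 j)⁻¹ * (a : Matrix R R F) r0 j) • (d : Matrix J J F) := by
      rw [mul_smul, f1, smul_smul, inv_mul_cancel₀ g1, one_smul]
    rw [k2, Matrix.mul_smul, ← Matrix.mul_assoc] at k1
    set u : F := ((a' : Matrix R R F) i r0)⁻¹ * (a : Matrix R R F) i r0 with hu
    set v : F := ((a' : Matrix R R F) r0 j)⁻¹ * (a : Matrix R R F) r0 j with hv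
    have hu0 : u ≠ 0 := mul_ne_zero (inv_ne_zero g2) hi
    have hv0 : v ≠ 0 := mul_ne_zero (inv_ne_zero g1) hj
    refine ⟨Units.mk0 (u⁻¹ * v) (mul_ne_zero (inv_ne_zero hu0) hv0), ?_⟩
    rw [Units.val_mk0, mul_smul, ← k1, smul_smul, inv_mul_cancel₀ hu0, one_smul]
  · left
    have hrow := c1 h00
    -- the column
    have hcol : ∀ i, i ≠ r0 → (a : Matrix R R F) i r0 = 0 := by
      intro i hi
      by_contra hne
      obtain ⟨r, hr⟩ := hR
      obtain ⟨s, hs⟩ := exists_ne_zero_col a r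
      apply hs
      by_cases hs0 : s = r0
      · rw [hs0]; exact hrow r hr
      · exact c2 i hi hne s r hs0 hr
    refine ⟨hrow, hcol, ?_⟩
    obtain ⟨r, hr⟩ := hR
    obtain ⟨s, hs⟩ := exists_ne_zero_col a r
    have hs0 : s ≠ r0 := by rintro rfl; exact hs (hrow r hr)
    have f2 := e2 s r hs0 hr
    have g2 := ratio hd0 hs f2
    have g1 := ratio hdb0 h00 e00
    have k2 : (d' : Matrix J J F) = (((a' : Matrix R R F) s r)⁻¹ * (a : Matrix R R F) s r) • (d : Matrix J J F) := by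
      rw [mul_smul, f2, smul_smul, inv_mul_cancel₀ g2, one_smul]
    have k1 : (d : Matrix J J F) * (b : Matrix J J F) =
        (((a : Matrix R R F) r0 r0)⁻¹ * (a' : Matrix R R F) r0 r0) • ((b : Matrix J J F) * (d' : Matrix J J F)) := by
      rw [mul_smul, ← e00, smul_smul, inv_mul_cancel₀ h00, one_smul]
    rw [k2, Matrix.mul_smul, smul_smul] at k1
    exact ⟨Units.mk0 _ (mul_ne_zero (mul_ne_zero (inv_ne_zero h00) g1) (mul_ne_zero (inv_ne_zero g2) hs)), k1⟩

/-- case I: the conjugate -/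
theorem conj_one {r0 : R} {b : GL J F} {a : GL R F} {d : GL J F}
    (h1 : ∀ j, j ≠ r0 → (a : Matrix R R F) r0 j = 0) (h2 : ∀ i, i ≠ r0 → (a : Matrix R R F) i r0 = 0) {l : Fˣ}
    (h3 : (d : Matrix J J F) * (b : Matrix J J F) = (l : F) • ((b : Matrix J J F) * (d : Matrix J J F))) :
    (xg r0 b)⁻¹ * kg a d * xg r0 b = kg (zg r0 l) 1 * kg a d := by
  rw [mul_assoc, inv_mul_eq_iff_eq_mul, kg_mul, one_mul]
  apply Units.ext
  rw [Units.val_mul, Units.val_mul, coe_kg, coe_kg, coe_xg]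
  apply blk_ext
  intro i j
  have hz : ((zg r0 l * a : GL R F) : Matrix R R F) i j = (if i = r0 then (l : F) else 1) * (a : Matrix R R F) i j := by
    rw [Units.val_mul]
    exact Matrix.diagonal_mul _ _ _ _
  rw [blk_mul_bd, blk_bd_mul, blk_kron, blk_kron, hz]
  by_cases hi : i = r0
  · subst hi
    by_cases hj : j = i
    · subst hj
      rw [ob_same, if_pos rfl, Matrix.smul_mul, h3, Matrix.mul_smul, smul_smul, mul_comm]
    · rw [h1 j hj, mul_zero, zero_smul, Matrix.zero_mul, Matrix.mul_zero]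
  · rw [if_neg hi, ob_ne hi, one_mul, one_mul]
    by_cases hj : j = r0
    · subst hj
      rw [h2 i hi, zero_smul, Matrix.zero_mul]
    · rw [ob_ne hj, Matrix.mul_one]

/-- case II: the conjugate -/
theorem conj_two {r0 : R} {b : GL J F} {a : GL R F} {d : GL J F}
    (h1 : (a : Matrix R R F) r0 r0 = 0) (h2 : ∀ i j, i ≠ r0 → j ≠ r0 → (a : Matrix R R F) i j = 0) {l : Fˣ}
    (h3 : (b : Matrix J J F) * (d : Matrix J J F) * (b : Matrix J J F) = (l : F) • (d : Matrix J J F)) :
    (xg r0 b)⁻¹ * kg a d * xg r0 b = kg (zg r0 l⁻¹) 1 * kg a (d * b) := by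
  rw [mul_assoc, inv_mul_eq_iff_eq_mul, kg_mul, one_mul]
  apply Units.ext
  rw [Units.val_mul, Units.val_mul, coe_kg, coe_kg, coe_xg, Units.val_mul d b]
  apply blk_ext
  intro i j
  have hz : ((zg r0 l⁻¹ * a : GL R F) : Matrix R R F) i j =
      (if i = r0 then ((l⁻¹ : Fˣ) : F) else 1) * (a : Matrix R R F) i j := by
    rw [Units.val_mul]
    exact Matrix.diagonal_mul _ _ _ _
  rw [blk_mul_bd, blk_bd_mul, blk_kron, blk_kron, hz]
  by_cases hi : i = r0
  · subst hi
    by_cases hj : j = i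
    · subst hj
      rw [h1, mul_zero, zero_smul, zero_smul, Matrix.zero_mul, Matrix.mul_zero]
    · rw [ob_same, if_pos rfl, ob_ne hj, Matrix.mul_one, Matrix.mul_smul, ← Matrix.mul_assoc, h3, smul_smul]
      congr 1
      rw [mul_comm, ← mul_assoc, Units.mul_inv, one_mul]
  · rw [if_neg hi, ob_ne hi, one_mul, one_mul]
    by_cases hj : j = r0
    · subst hj
      rw [ob_same, Matrix.smul_mul]
    · rw [h2 i j hi hj, zero_smul, zero_smul, Matrix.zero_mul]

/-- **the normalising step**: `w = 1 ⊗ c`, `c b c⁻¹ = b⁻¹` -/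
theorem conj_w {r0 : R} (hR : ∃ r, r ≠ r0) (hJ : Nonempty J) {b c : GL J F}
    (hb : ∀ l : F, (b : Matrix J J F) ≠ l • (1 : Matrix J J F)) (hc : c * b * c⁻¹ = b⁻¹)
    {a a' : GL R F} {d d' : GL J F} (h : (xg r0 b)⁻¹ * kg a d * xg r0 b = kg a' d') :
    (∃ l : Fˣ, kg a' d' = kg (zg r0 l) 1 * kg a d ∧
      (xg r0 b)⁻¹ * (kg 1 c * kg a d * (kg 1 c)⁻¹) * xg r0 b =
        (kg (zg r0 l) 1)⁻¹ * (kg 1 c * kg a d * (kg 1 c)⁻¹)) ∨
    ((a : Matrix R R F) r0 r0 = 0 ∧ (∀ i j, i ≠ r0 → j ≠ r0 → (a : Matrix R R F) i j = 0) ∧ ∃ l : Fˣ,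
      (xg r0 b)⁻¹ * (kg 1 c * kg a d * (kg 1 c)⁻¹) * xg r0 b =
        kg (zg r0 l⁻¹) 1 * kg a (c * d * c⁻¹ * b)) := by
  have hw : kg 1 c * kg a d * (kg 1 c)⁻¹ = kg a (c * d * c⁻¹) := by
    rw [kg_inv, kg_mul, kg_mul, inv_one, one_mul, mul_one]
  have hc' : c * b⁻¹ * c⁻¹ = b := by
    have := congrArg (fun z => z⁻¹) hc
    simpa [mul_assoc] using this
  rw [hw]
  have h' : kg a d * xg r0 b = xg r0 b * kg a' d' := by
    rw [← h, mul_assoc, mul_inv_cancel_left]
  rcases two_cases hR hJ hb h' with ⟨h1, h2, l, h3⟩ | ⟨h1, h2, l, h3⟩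
  · left
    refine ⟨l, ?_, ?_⟩
    · rw [← h, conj_one h1 h2 h3]
    · -- `c d c⁻¹ b = l⁻¹ b c d c⁻¹`
      have h4 : ((c * d * c⁻¹ : GL J F) : Matrix J J F) * (b : Matrix J J F) =
          ((l⁻¹ : Fˣ) : F) • ((b : Matrix J J F) * ((c * d * c⁻¹ : GL J F) : Matrix J J F)) := by
        have e1 : (b : Matrix J J F) * ((c * d * c⁻¹ : GL J F) : Matrix J J F) =
            ((c * (b⁻¹ * d) * c⁻¹ : GL J F) : Matrix J J F) := by
          rw [← Units.val_mul]
          congr 1
          conv_lhs => rw [← hc']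
          group
        have e2 : ((c * d * c⁻¹ : GL J F) : Matrix J J F) * (b : Matrix J J F) =
            ((c * (d * b⁻¹) * c⁻¹ : GL J F) : Matrix J J F) := by
          rw [← Units.val_mul]
          congr 1
          conv_lhs => rw [← hc']
          group
        have e3 : ((b⁻¹ * d : GL J F) : Matrix J J F) = (l : F) • ((d * b⁻¹ : GL J F) : Matrix J J F) := by
          calc ((b⁻¹ * d : GL J F) : Matrix J J F) = ((b⁻¹ : GL J F) : Matrix J J F) *
                ((d : Matrix J J F) * (b : Matrix J J F)) * ((b⁻¹ : GL J F) : Matrix J J F) := by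
                rw [Matrix.mul_assoc, Matrix.mul_assoc, coe_mul_inv', Matrix.mul_one]
                rfl
            _ = _ := by
                rw [h3, Matrix.mul_smul, Matrix.smul_mul, ← Matrix.mul_assoc, coe_inv_mul', Matrix.one_mul]
                rfl
        rw [e1, e2]
        have e4 : ((c * (b⁻¹ * d) * c⁻¹ : GL J F) : Matrix J J F) = (l : F) •
            ((c * (d * b⁻¹) * c⁻¹ : GL J F) : Matrix J J F) := by
          rw [Units.val_mul, Units.val_mul, e3, Units.val_mul (c * (d * b⁻¹)), Units.val_mul c (d * b⁻¹),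
            Matrix.mul_smul, Matrix.smul_mul]
        rw [e4, smul_smul, Units.inv_mul, one_smul]
      rw [conj_one h1 h2 h4, kg_inv, inv_one]
      congr 2
  · right
    refine ⟨h1, h2, l⁻¹, ?_⟩
    -- `b c d c⁻¹ b = l⁻¹ c d c⁻¹`
    have h4 : (b : Matrix J J F) * ((c * d * c⁻¹ : GL J F) : Matrix J J F) * (b : Matrix J J F) =
        ((l⁻¹ : Fˣ) : F) • ((c * d * c⁻¹ : GL J F) : Matrix J J F) := by
      have e1 : (b : Matrix J J F) * ((c * d * c⁻¹ : GL J F) : Matrix J J F) * (b : Matrix J J F) =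
          ((c * (b⁻¹ * d * b⁻¹) * c⁻¹ : GL J F) : Matrix J J F) := by
        rw [← Units.val_mul, ← Units.val_mul]
        congr 1
        conv_lhs => rw [← hc']
        group
      have e3 : (d : Matrix J J F) = (l : F) • ((b⁻¹ * d * b⁻¹ : GL J F) : Matrix J J F) := by
        calc (d : Matrix J J F) = ((b⁻¹ : GL J F) : Matrix J J F) * ((b : Matrix J J F) * (d : Matrix J J F) *
              (b : Matrix J J F)) * ((b⁻¹ : GL J F) : Matrix J J F) := by
              rw [Matrix.mul_assoc (b : Matrix J J F), ← Matrix.mul_assoc _ (b : Matrix J J F), coe_inv_mul',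
                Matrix.one_mul, Matrix.mul_assoc, coe_mul_inv', Matrix.mul_one]
          _ = _ := by
              rw [h3, Matrix.mul_smul, Matrix.smul_mul]
              rfl
      rw [e1]
      have e4 : ((c * d * c⁻¹ : GL J F) : Matrix J J F) = (l : F) •
          ((c * (b⁻¹ * d * b⁻¹) * c⁻¹ : GL J F) : Matrix J J F) := by
        rw [Units.val_mul, Units.val_mul, e3, Units.val_mul (c * (b⁻¹ * d * b⁻¹)),
          Units.val_mul c (b⁻¹ * d * b⁻¹), Matrix.mul_smul, Matrix.smul_mul]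
      rw [e4, smul_smul, Units.inv_mul, one_smul]
    rw [conj_two h1 h2 h4]

end Cfsg.Agent.H25.EPU
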