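import Mathlib

/-!
# S3499, rows SU-C4 and SU-C7: a three-cycle and a signed transposition inverting it (helper25)
-/

set_option autoImplicit false
set_option linter.unusedSectionVars false
set_option linter.unusedSimpArgs false

namespace Cfsg.Agent.H25.EPU

open Matrix Equiv
open scoped MatrixGroups

variable {F : Type*} [Field F] {κ : Type} [Fintype κ] [DecidableEq κ]

/-- the three-cycle -/
def cy (a0 a1 a2 : κ) : Perm κ := swap a0 a1 * swap a1 a2

theorem cy_inv (a0 a1 a2 : κ) : (cy a0 a1 a2)⁻¹ = swap a1 a2 * swap a0 a1 := by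
  rw [cy, _root_.mul_inv_rev, swap_inv, swap_inv]

theorem sign_cy {a0 a1 a2 : κ} (h01 : a0 ≠ a1) (h12 : a1 ≠ a2) : Perm.sign (cy a0 a1 a2) = 1 := by
  rw [cy, Perm.sign_mul, Perm.sign_swap h01, Perm.sign_swap h12]
  rfl

theorem cy_zero {a0 a1 a2 : κ} (h02 : a0 ≠ a2) (h01 : a0 ≠ a1) : cy a0 a1 a2 a0 = a1 := by
  rw [cy, Perm.mul_apply, swap_apply_of_ne_of_ne h01 h02, swap_apply_left]

theorem cy_one {a0 a1 a2 : κ} (h02 : a0 ≠ a2) (h12 : a1 ≠ a2) : cy a0 a1 a2 a1 = a2 := by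
  rw [cy, Perm.mul_apply, swap_apply_left, swap_apply_of_ne_of_ne h02.symm h12.symm]

theorem cy_two {a0 a1 a2 : κ} : cy a0 a1 a2 a2 = a0 := by
  rw [cy, Perm.mul_apply, swap_apply_right, swap_apply_right]

theorem cy_other {a0 a1 a2 i : κ} (h0 : i ≠ a0) (h1 : i ≠ a1) (h2 : i ≠ a2) : cy a0 a1 a2 i = i := by
  rw [cy, Perm.mul_apply, swap_apply_of_ne_of_ne h1 h2, swap_apply_of_ne_of_ne h0 h1]

/-- the signs -/
def sg (F : Type*) [Field F] (a0 a1 a2 i : κ) : F := if i = a0 ∨ i = a1 ∨ i = a2 then -1 else 1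

theorem sg_mul_self (a0 a1 a2 i : κ) : sg F a0 a1 a2 i * sg F a0 a1 a2 i = 1 := by
  unfold sg
  split_ifs <;> ring

theorem sg_swap (a0 a1 a2 i : κ) : sg F a0 a1 a2 (swap a0 a1 i) = sg F a0 a1 a2 i := by
  unfold sg
  by_cases h0 : i = a0
  · subst h0
    rw [swap_apply_left, if_pos (Or.inr (Or.inl rfl)), if_pos (Or.inl rfl)]
  · by_cases h1 : i = a1
    · subst h1
      rw [swap_apply_right, if_pos (Or.inl rfl), if_pos (Or.inr (Or.inl rfl))]
    · rw [swap_apply_of_ne_of_ne h0 h1]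

theorem sg_swap' (a0 a1 a2 i : κ) : sg F a0 a1 a2 (swap a1 a2 i) = sg F a0 a1 a2 i := by
  unfold sg
  by_cases h1 : i = a1
  · subst h1
    rw [swap_apply_left, if_pos (Or.inr (Or.inr rfl)), if_pos (Or.inr (Or.inl rfl))]
  · by_cases h2 : i = a2
    · subst h2
      rw [swap_apply_right, if_pos (Or.inr (Or.inl rfl)), if_pos (Or.inr (Or.inr rfl))]
    · rw [swap_apply_of_ne_of_ne h1 h2]

theorem sg_cy (a0 a1 a2 i : κ) : sg F a0 a1 a2 (cy a0 a1 a2 i) = sg F a0 a1 a2 i := by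
  rw [cy, Perm.mul_apply, sg_swap, sg_swap']

theorem prod_sg {a0 a1 a2 : κ} (h01 : a0 ≠ a1) (h02 : a0 ≠ a2) (h12 : a1 ≠ a2) :
    ∏ i, sg F a0 a1 a2 i = -1 := by
  have h : ∀ i : κ, sg F a0 a1 a2 i = if i ∈ ({a0, a1, a2} : Finset κ) then (-1 : F) else 1 := by
    intro i
    unfold sg
    simp only [Finset.mem_insert, Finset.mem_singleton]
  simp only [h]
  rw [Finset.prod_ite_mem, Finset.univ_inter, Finset.prod_const, Finset.card_eq_three.2 ⟨a0, a1, a2, h01, h02, h12, rfl⟩]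
  ring

/-- the matrix of the three-cycle -/
def bm (F : Type*) [Field F] (a0 a1 a2 : κ) : Matrix κ κ F := (cy a0 a1 a2).permMatrix F

/-- the signed transposition -/
def cm (F : Type*) [Field F] (a0 a1 a2 : κ) : Matrix κ κ F :=
  Matrix.diagonal (sg F a0 a1 a2) * (swap a0 a1).permMatrix F

theorem diag_perm (d : κ → F) (τ : Perm κ) (h : ∀ i, d (τ i) = d i) :
    Matrix.diagonal d * τ.permMatrix F = τ.permMatrix F * Matrix.diagonal d := by
  ext i j
  rw [Matrix.diagonal_mul, Matrix.mul_diagonal]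
  by_cases hij : τ i = j
  · subst hij
    rw [h, mul_comm]
  · have : τ.permMatrix F i j = 0 := by
      simp [PEquiv.toMatrix_apply, Ne.symm hij, hij]
    rw [this, mul_zero, zero_mul]

theorem diag_sq (a0 a1 a2 : κ) : Matrix.diagonal (sg F a0 a1 a2) * Matrix.diagonal (sg F a0 a1 a2) = 1 := by
  rw [Matrix.diagonal_mul_diagonal]
  simp only [sg_mul_self]
  exact Matrix.diagonal_one

theorem perm_sq (τ : Perm κ) (h : τ * τ = 1) : τ.permMatrix F * τ.permMatrix F = 1 := by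
  rw [← Matrix.permMatrix_mul, h, Matrix.permMatrix_one]

theorem bm_transpose_mul (a0 a1 a2 : κ) : (bm F a0 a1 a2)ᵀ * bm F a0 a1 a2 = 1 := by
  rw [bm, Matrix.transpose_permMatrix, ← Matrix.permMatrix_mul, mul_inv_cancel, Matrix.permMatrix_one]

theorem bm_mul_transpose (a0 a1 a2 : κ) : bm F a0 a1 a2 * (bm F a0 a1 a2)ᵀ = 1 := by
  rw [bm, Matrix.transpose_permMatrix, ← Matrix.permMatrix_mul, inv_mul_cancel, Matrix.permMatrix_one]

theorem cm_mul_cm (a0 a1 a2 : κ) : cm F a0 a1 a2 * cm F a0 a1 a2 = 1 := by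
  unfold cm
  calc _ = Matrix.diagonal (sg F a0 a1 a2) * ((swap a0 a1).permMatrix F * Matrix.diagonal (sg F a0 a1 a2)) *
        (swap a0 a1).permMatrix F := by simp only [Matrix.mul_assoc]
    _ = (Matrix.diagonal (sg F a0 a1 a2) * Matrix.diagonal (sg F a0 a1 a2)) *
        ((swap a0 a1).permMatrix F * (swap a0 a1).permMatrix F) := by
        rw [← diag_perm _ _ (sg_swap a0 a1 a2)]
        simp only [Matrix.mul_assoc]
    _ = 1 := by rw [diag_sq, perm_sq _ (Equiv.swap_mul_self _ _), Matrix.one_mul]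

theorem cm_transpose (a0 a1 a2 : κ) : (cm F a0 a1 a2)ᵀ = cm F a0 a1 a2 := by
  unfold cm
  rw [Matrix.transpose_mul, Matrix.diagonal_transpose, Matrix.transpose_permMatrix, swap_inv,
    diag_perm _ _ (sg_swap a0 a1 a2)]

theorem cm_conj (a0 a1 a2 : κ) : cm F a0 a1 a2 * bm F a0 a1 a2 * cm F a0 a1 a2 = (bm F a0 a1 a2)ᵀ := by
  have e1 : cm F a0 a1 a2 = (swap a0 a1).permMatrix F * Matrix.diagonal (sg F a0 a1 a2) :=
    diag_perm _ _ (sg_swap a0 a1 a2)
  have e2 : Matrix.diagonal (sg F a0 a1 a2) * bm F a0 a1 a2 = bm F a0 a1 a2 * Matrix.diagonal (sg F a0 a1 a2) :=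
    diag_perm _ _ (sg_cy a0 a1 a2)
  calc cm F a0 a1 a2 * bm F a0 a1 a2 * cm F a0 a1 a2
      = (swap a0 a1).permMatrix F * (Matrix.diagonal (sg F a0 a1 a2) * bm F a0 a1 a2) *
        (Matrix.diagonal (sg F a0 a1 a2) * (swap a0 a1).permMatrix F) := by
        conv_lhs => rw [e1]
        rw [← diag_perm _ _ (sg_swap a0 a1 a2)]
        rw [diag_perm _ _ (sg_swap a0 a1 a2)]
        simp only [Matrix.mul_assoc]
    _ = (swap a0 a1).permMatrix F * bm F a0 a1 a2 *
        (Matrix.diagonal (sg F a0 a1 a2) * Matrix.diagonal (sg F a0 a1 a2)) * (swap a0 a1).permMatrix F := by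
        rw [e2]
        simp only [Matrix.mul_assoc]
    _ = (swap a0 a1).permMatrix F * bm F a0 a1 a2 * (swap a0 a1).permMatrix F := by
        rw [diag_sq, Matrix.mul_one]
    _ = _ := by
        rw [bm, Matrix.transpose_permMatrix, ← Matrix.permMatrix_mul, ← Matrix.permMatrix_mul, cy_inv, cy]
        congr 1
        rw [← mul_assoc, ← mul_assoc, Equiv.swap_mul_self, one_mul]

theorem bm_det {a0 a1 a2 : κ} (h01 : a0 ≠ a1) (h12 : a1 ≠ a2) : (bm F a0 a1 a2).det = 1 := by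
  rw [bm, Matrix.det_permutation, sign_cy h01 h12]
  simp

theorem cm_det {a0 a1 a2 : κ} (h01 : a0 ≠ a1) (h02 : a0 ≠ a2) (h12 : a1 ≠ a2) : (cm F a0 a1 a2).det = 1 := by
  rw [cm, Matrix.det_mul, Matrix.det_diagonal, prod_sg h01 h02 h12, Matrix.det_permutation,
    Perm.sign_swap h01]
  simp

theorem bm_apply (a0 a1 a2 i j : κ) : bm F a0 a1 a2 i j = if cy a0 a1 a2 i = j then 1 else 0 := by
  simp [bm, PEquiv.toMatrix_apply, eq_comm]

theorem cm_apply (a0 a1 a2 i j : κ) : cm F a0 a1 a2 i j =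
    if swap a0 a1 i = j then sg F a0 a1 a2 i else 0 := by
  rw [cm, Matrix.diagonal_mul]
  by_cases h : swap a0 a1 i = j
  · rw [if_pos h]
    simp [PEquiv.toMatrix_apply, h]
  · rw [if_neg h]
    simp [PEquiv.toMatrix_apply, h, Ne.symm h]

theorem bm_sq_ne {a0 a1 a2 : κ} (h01 : a0 ≠ a1) (h02 : a0 ≠ a2) (h12 : a1 ≠ a2) (l : F) :
    bm F a0 a1 a2 * bm F a0 a1 a2 ≠ l • (1 : Matrix κ κ F) := by
  intro h
  rw [bm, ← Matrix.permMatrix_mul] at h
  have h1 := congrFun (congrFun h a0) a2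
  have h2 : (cy a0 a1 a2 * cy a0 a1 a2) a0 = a2 := by
    rw [Perm.mul_apply, cy_zero h02 h01, cy_one h02 h12]
  rw [Matrix.smul_apply, Matrix.one_apply_ne h02, smul_zero] at h1
  simp [PEquiv.toMatrix_apply, h2] at h1

end Cfsg.Agent.H25.EPU
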