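import Cfsg.Agent.H25.EPU.Frame
import Cfsg.Agent.H25.EPU.Cyc
import Cfsg.Agent.H25.EPU.Blk
import Cfsg.Agent.H458.EP.Norm
import Cfsg.Agent.H588.EPU.Asm

/-!
# S3499, row SU-C4: `Kills C4` (helper25)
-/

set_option autoImplicit false
set_option linter.unusedSectionVars false

namespace Cfsg.Agent.H25.EPU

open Subgroup Cfsg.Agent.H284 Cfsg.Agent.H419.EP Cfsg.Agent.H458.EP Cfsg.Geo Matrix
open scoped MatrixGroups Kronecker

/-- the kill criterion in a frame -/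
theorem kill_frame {Q : Type*} [Group Q] [Finite Q] {A : Subgroup Q} {Γ : Subgroup (MulAut Q)} (h : EPT A Γ)
    {F : Type} [Field F] {n : ℕ} {S : Subgroup (GL (Fin n) F)} (m : Model Q S)
    {κ : Type} [Fintype κ] [DecidableEq κ] (e : Fin n ≃ κ) (P : GL (Fin n) F) (K : Subgroup (GL κ F))
    (hA : ∀ g, fr e P g ∈ m.hat A ↔ g ∈ K ∧ fr e P g ∈ S)
    {X W : GL κ F} (hXS : fr e P X ∈ S) (hWS : fr e P W ∈ S) (hW : W ∈ K)
    (h3 : ∀ k ∈ K, X⁻¹ * k * X ∈ K → X⁻¹ * (W * k * W⁻¹) * X ∈ K) (h4 : X⁻¹ * W * X ∉ K) : False := by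
  have hX : X ∉ K := fun hX => h4 (K.mul_mem (K.mul_mem (K.inv_mem hX) hW) hX)
  have hxA : fr e P X ∉ m.hat A := fun hx => hX ((hA X).1 hx).1
  have hwA : fr e P W ∈ m.hat A := (hA W).2 ⟨hW, hWS⟩
  have key : fr e P W ∈ cj (fr e P X) (m.hat A) := by
    refine kill_norm h m hXS hxA hwA ?_
    intro k hk hkx
    obtain ⟨k, rfl⟩ := (fr e P).surjective k
    have h5 := ((hA k).1 hk)
    rw [mem_cj, ← map_inv, ← map_mul, ← map_mul] at hkx
    have h6 := ((hA _).1 hkx)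
    rw [mem_cj, ← map_inv, ← map_mul, ← map_inv, ← map_mul, ← map_mul, ← map_mul, hA]
    refine ⟨h3 k h5.1 h6.1, ?_⟩
    simp only [map_mul, map_inv]
    exact S.mul_mem (S.mul_mem (S.inv_mem hXS) (S.mul_mem (S.mul_mem hWS h5.2) (S.inv_mem hWS))) hXS
  rw [mem_cj, ← map_inv, ← map_mul, ← map_mul] at key
  exact h4 ((hA _).1 key).1

section units

variable {F : Type} [Field F] {J : Type} [Fintype J] [DecidableEq J]

/-- the three-cycle as a unit -/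
def bg (F : Type) [Field F] (a0 a1 a2 : J) : GL J F where
  val := bm F a0 a1 a2
  inv := (bm F a0 a1 a2)ᵀ
  val_inv := bm_mul_transpose _ _ _
  inv_val := bm_transpose_mul _ _ _

/-- the signed transposition as a unit -/
def cg (F : Type) [Field F] (a0 a1 a2 : J) : GL J F where
  val := cm F a0 a1 a2
  inv := cm F a0 a1 a2
  val_inv := cm_mul_cm _ _ _
  inv_val := cm_mul_cm _ _ _

theorem cg_conj (a0 a1 a2 : J) : cg F a0 a1 a2 * bg F a0 a1 a2 * (cg F a0 a1 a2)⁻¹ = (bg F a0 a1 a2)⁻¹ := by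
  apply Units.ext
  exact cm_conj a0 a1 a2

theorem bg_ne {a0 a1 a2 : J} (h01 : a0 ≠ a1) (h02 : a0 ≠ a2) (h12 : a1 ≠ a2) (l : F) :
    (bg F a0 a1 a2 : Matrix J J F) ≠ l • (1 : Matrix J J F) := by
  intro h
  apply bm_sq_ne (F := F) h01 h02 h12 (l * l)
  change (bg F a0 a1 a2 : Matrix J J F) * (bg F a0 a1 a2 : Matrix J J F) = _
  rw [h, Matrix.smul_mul, Matrix.one_mul, smul_smul]

end units

section tensor

variable {F : Type} [Field F] {n₁ n₂ : ℕ}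

theorem mem_kron {g : GL (Fin n₁ × Fin n₂) F} : g ∈ kroneckerSubgroup n₁ n₂ F ↔
    ∃ (a : GL (Fin n₁) F) (d : GL (Fin n₂) F), g = kg a d := by
  constructor
  · rintro ⟨a, d, h⟩
    exact ⟨a, d, Units.ext h⟩
  · rintro ⟨a, d, rfl⟩
    exact ⟨a, d, rfl⟩

theorem kg_mem (a : GL (Fin n₁) F) (d : GL (Fin n₂) F) : kg a d ∈ kroneckerSubgroup n₁ n₂ F := mem_kron.2 ⟨a, d, rfl⟩

/-- (iii) -/
theorem tensor_three {r0 : Fin n₁} (hR : ∃ r, r ≠ r0) (hJ : Nonempty (Fin n₂)) {b c : GL (Fin n₂) F}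
    (hb : ∀ l : F, (b : Matrix (Fin n₂) (Fin n₂) F) ≠ l • (1 : Matrix (Fin n₂) (Fin n₂) F)) (hc : c * b * c⁻¹ = b⁻¹)
    (k : GL (Fin n₁ × Fin n₂) F) (hk : k ∈ kroneckerSubgroup n₁ n₂ F)
    (hkx : (xg r0 b)⁻¹ * k * xg r0 b ∈ kroneckerSubgroup n₁ n₂ F) :
    (xg r0 b)⁻¹ * (kg 1 c * k * (kg 1 c)⁻¹) * xg r0 b ∈ kroneckerSubgroup n₁ n₂ F := by
  obtain ⟨a, d, rfl⟩ := mem_kron.1 hk
  obtain ⟨a', d', h⟩ := mem_kron.1 hkx
  rcases conj_w hR hJ hb hc h with ⟨l, -, h1⟩ | ⟨-, -, l, h1⟩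
  · rw [h1]
    exact Subgroup.mul_mem _ (Subgroup.inv_mem _ (kg_mem _ _))
      (Subgroup.mul_mem _ (Subgroup.mul_mem _ (kg_mem _ _) (kg_mem _ _)) (Subgroup.inv_mem _ (kg_mem _ _)))
  · rw [h1]
    exact Subgroup.mul_mem _ (kg_mem _ _) (kg_mem _ _)

/-- (iv) -/
theorem tensor_four {r0 : Fin n₁} (hR : ∃ r, r ≠ r0) (hJ : Nonempty (Fin n₂)) {b c : GL (Fin n₂) F}
    (hb : ∀ l : F, (b : Matrix (Fin n₂) (Fin n₂) F) ≠ l • (1 : Matrix (Fin n₂) (Fin n₂) F))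
    (hb2 : ∀ l : F, (b : Matrix (Fin n₂) (Fin n₂) F) * (b : Matrix (Fin n₂) (Fin n₂) F) ≠
      l • (1 : Matrix (Fin n₂) (Fin n₂) F)) (hc : c * b * c⁻¹ = b⁻¹) :
    (xg r0 b)⁻¹ * kg 1 c * xg r0 b ∉ kroneckerSubgroup n₁ n₂ F := by
  intro hx
  obtain ⟨a', d', h⟩ := mem_kron.1 hx
  have h' : kg (1 : GL (Fin n₁) F) c * xg r0 b = xg r0 b * kg a' d' := by
    rw [← h, mul_assoc, mul_inv_cancel_left]
  rcases two_cases hR hJ hb h' with ⟨-, -, l, h3⟩ | ⟨h1, -, -, -⟩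
  · -- `c b = l b c`, `c b = b⁻¹ c`
    have e1 : c * b = b⁻¹ * c := by rw [← hc]; group
    have e2 : ((b⁻¹ * c : GL (Fin n₂) F) : Matrix (Fin n₂) (Fin n₂) F) =
        (l : F) • ((b : Matrix (Fin n₂) (Fin n₂) F) * (c : Matrix (Fin n₂) (Fin n₂) F)) := by
      rw [← e1]
      exact h3
    have e3 : (b : Matrix (Fin n₂) (Fin n₂) F) * (b : Matrix (Fin n₂) (Fin n₂) F) * (c : Matrix (Fin n₂) (Fin n₂) F) =
        ((l⁻¹ : Fˣ) : F) • (c : Matrix (Fin n₂) (Fin n₂) F) := by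
      have e4 : (c : Matrix (Fin n₂) (Fin n₂) F) = (l : F) • ((b : Matrix (Fin n₂) (Fin n₂) F) *
          ((b : Matrix (Fin n₂) (Fin n₂) F) * (c : Matrix (Fin n₂) (Fin n₂) F))) := by
        rw [← Matrix.mul_smul, ← e2, Units.val_mul, ← Matrix.mul_assoc, coe_mul_inv', Matrix.one_mul]
      conv_rhs => rw [e4]
      rw [smul_smul, Units.inv_mul, one_smul, Matrix.mul_assoc]
    apply hb2 ((l⁻¹ : Fˣ) : F)
    calc (b : Matrix (Fin n₂) (Fin n₂) F) * (b : Matrix (Fin n₂) (Fin n₂) F) =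
        ((b : Matrix (Fin n₂) (Fin n₂) F) * (b : Matrix (Fin n₂) (Fin n₂) F) * (c : Matrix (Fin n₂) (Fin n₂) F)) *
          ((c⁻¹ : GL (Fin n₂) F) : Matrix (Fin n₂) (Fin n₂) F) := by
          rw [Matrix.mul_assoc _ (c : Matrix (Fin n₂) (Fin n₂) F), coe_mul_inv', Matrix.mul_one]
      _ = _ := by rw [e3, Matrix.smul_mul, coe_mul_inv']
  · rw [Units.val_one, Matrix.one_apply_eq] at h1
    exact one_ne_zero h1

end tensor

section C4

theorem xg_orth {F : Type} [Field F] {R J : Type} [Fintype R] [DecidableEq R] [Fintype J] [DecidableEq J] (r0 : R)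
    (a0 a1 a2 : J) : (xg r0 (bg F a0 a1 a2) : Matrix (R × J) (R × J) F)ᵀ *
      (xg r0 (bg F a0 a1 a2) : Matrix (R × J) (R × J) F) = 1 := by
  rw [coe_xg, bd_transpose, bd_mul]
  have : (fun i => (ob r0 (bg F a0 a1 a2 : Matrix J J F) i)ᵀ * ob r0 (bg F a0 a1 a2 : Matrix J J F) i) =
      fun _ : R => (1 : Matrix J J F) := by
    funext i
    unfold ob
    split_ifs
    · exact bm_transpose_mul _ _ _
    · rw [Matrix.transpose_one, Matrix.one_mul]
  rw [this, bd_one]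

theorem xg_det {F : Type} [Field F] {R J : Type} [Fintype R] [DecidableEq R] [Fintype J] [DecidableEq J] (r0 : R)
    {a0 a1 a2 : J} (h01 : a0 ≠ a1) (h02 : a0 ≠ a2) (h12 : a1 ≠ a2) :
    (xg r0 (bg F a0 a1 a2) : Matrix (R × J) (R × J) F).det = 1 := by
  have h : (xg r0 (bg F a0 a1 a2) : Matrix (R × J) (R × J) F) = bm F (r0, a0) (r0, a1) (r0, a2) := by
    ext ⟨i, k⟩ ⟨j, l⟩
    rw [bm_apply]
    change (if i = j then ob r0 (bm F a0 a1 a2) i k l else 0) = _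
    have hcy : cy (r0, a0) (r0, a1) (r0, a2) (i, k) = if i = r0 then (r0, cy a0 a1 a2 k) else (i, k) := by
      by_cases hi : i = r0
      · subst hi
        rw [if_pos rfl]
        by_cases k0 : k = a0
        · subst k0
          rw [cy_zero (by simp [h02]) (by simp [h01]), cy_zero h02 h01]
        · by_cases k1 : k = a1
          · subst k1
            rw [cy_one (by simp [h02]) (by simp [h12]), cy_one h02 h12]
          · by_cases k2 : k = a2
            · subst k2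
              rw [cy_two, cy_two]
            · rw [cy_other (by simp [k0]) (by simp [k1]) (by simp [k2]), cy_other k0 k1 k2]
      · rw [if_neg hi, cy_other (by simp [hi]) (by simp [hi]) (by simp [hi])]
    rw [hcy]
    by_cases hi : i = r0
    · subst hi
      rw [ob_same, if_pos rfl, bm_apply]
      by_cases hij : i = j
      · subst hij
        simp
      · simp [hij]
    · rw [ob_ne hi, if_neg hi, Matrix.one_apply]
      by_cases hij : i = j
      · subst hij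
        simp
      · simp [hij]
  rw [h, bm_det (by simp [h01]) (by simp [h12])]

theorem xg_pow {F : Type} [Field F] {R J : Type} [Fintype R] [DecidableEq R] [Fintype J] [DecidableEq J] (r0 : R)
    (a0 a1 a2 : J) {q : ℕ} (hq : q ≠ 0) (i j : R × J) : (xg r0 (bg F a0 a1 a2) : Matrix (R × J) (R × J) F) i j ^ q =
      (xg r0 (bg F a0 a1 a2) : Matrix (R × J) (R × J) F) i j := by
  change (if i.1 = j.1 then ob r0 (bm F a0 a1 a2) i.1 i.2 j.2 else 0) ^ q = if i.1 = j.1 then ob r0 (bm F a0 a1 a2) i.1 i.2 j.2 else 0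
  unfold ob
  split_ifs
  · rw [bm_apply]
    split_ifs <;> simp [hq]
  · rw [Matrix.one_apply]
    split_ifs <;> simp [hq]
  · simp [hq]

theorem cm_pow {F : Type} [Field F] {J : Type} [Fintype J] [DecidableEq J]
    (a0 a1 a2 : J) {q : ℕ} (hq : q ≠ 0) (hq1 : (-1 : F) ^ q = -1) (i j : J) :
    cm F a0 a1 a2 i j ^ q = cm F a0 a1 a2 i j := by
  rw [cm_apply]
  unfold sg
  split_ifs <;> simp [hq, hq1]

theorem neg_one_pow_q {F : Type} [Field F] [Fintype F] {q : ℕ} (hF : Fintype.card F = q ^ 2) : (-1 : F) ^ q = -1 := by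
  have h : (-1 : F) ^ q = LieClassical.HermBasic.conj hF (-1) := rfl
  rw [h, map_neg, map_one]

theorem kills_C4 : H588.EPU.Kills H588.EPU.C4 := by
  intro Q _ _ hs A Γ he F _ _ n q m hF hn h32 h43 M hM hle
  obtain ⟨n₁, n₂, e, P, f₁, f₂, hn1, hn12, hf₁, hf₂, hT, rfl⟩ := hM
  obtain ⟨P', c, hc0, hform, hP'⟩ := exists_std_tensor hF e P f₁ f₂ hf₁ hf₂ hT
  rw [← hP'] at hle
  have hq0 : q ≠ 0 := by
    rintro rfl
    rw [zero_pow two_ne_zero] at hF
    exact Fintype.card_ne_zero hF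
  have hT' : m.hat A = tensorProductSubgroup n₁ n₂ e P' ⊓ (Cfsg.GU n F q ⊓ Cfsg.Geo.specialLinear (Fin n) F) :=
    hat_eq m he.max (hle.trans inf_le_left) (H918.SUg_not_le_tensorProductSubgroup hF hn hn1 (by omega) e P')
  have hA : ∀ g, fr e P' g ∈ m.hat A ↔ g ∈ kroneckerSubgroup n₁ n₂ F ∧
      fr e P' g ∈ Cfsg.GU n F q ⊓ Cfsg.Geo.specialLinear (Fin n) F := by
    intro g
    rw [hT', mem_inf]
    have : fr e P' g ∈ tensorProductSubgroup n₁ n₂ e P' ↔ g ∈ kroneckerSubgroup n₁ n₂ F := by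
      rw [tensorProductSubgroup, Subgroup.map_map]
      constructor
      · rintro ⟨k, hk, h⟩
        have : k = g := (fr e P').injective h
        rwa [← this]
      · intro hg
        exact ⟨g, hg, rfl⟩
    rw [this]
  have i0 : Fin n₂ := ⟨0, by omega⟩
  set a0 : Fin n₂ := ⟨0, by omega⟩ with ha0
  set a1 : Fin n₂ := ⟨1, by omega⟩ with ha1
  set a2 : Fin n₂ := ⟨2, by omega⟩ with ha2
  have h01 : a0 ≠ a1 := by simp [ha0, ha1]
  have h02 : a0 ≠ a2 := by simp [ha0, ha2]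
  have h12 : a1 ≠ a2 := by simp [ha1, ha2]
  set r0 : Fin n₁ := ⟨0, by omega⟩ with hr0
  have hR : ∃ r : Fin n₁, r ≠ r0 := ⟨⟨1, by omega⟩, by simp [hr0]⟩
  refine kill_frame he m e P' (kroneckerSubgroup n₁ n₂ F) hA (X := xg r0 (bg F a0 a1 a2))
    (W := kg 1 (cg F a0 a1 a2)) ?_ ?_ (kg_mem _ _)
    (tensor_three hR ⟨i0⟩ (bg_ne h01 h02 h12) (cg_conj a0 a1 a2))
    (tensor_four hR ⟨i0⟩ (bg_ne h01 h02 h12) (bm_sq_ne h01 h02 h12) (cg_conj a0 a1 a2))
  · exact fr_mem hF hform _ (xg_orth r0 a0 a1 a2) (xg_pow r0 a0 a1 a2 hq0) (xg_det r0 h01 h02 h12)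
  · refine fr_mem hF hform _ ?_ ?_ ?_
    · rw [coe_kg, ← Matrix.kroneckerMap_transpose, ← Matrix.mul_kronecker_mul, Units.val_one, Matrix.transpose_one,
        Matrix.one_mul]
      change (1 : Matrix (Fin n₁) (Fin n₁) F) ⊗ₖ ((cm F a0 a1 a2)ᵀ * cm F a0 a1 a2) = 1
      rw [cm_transpose, cm_mul_cm, Matrix.one_kronecker_one]
    · rintro ⟨i, k⟩ ⟨j, l⟩
      change ((1 : Matrix (Fin n₁) (Fin n₁) F) i j * cm F a0 a1 a2 k l) ^ q =
        (1 : Matrix (Fin n₁) (Fin n₁) F) i j * cm F a0 a1 a2 k l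
      rw [mul_pow, cm_pow a0 a1 a2 hq0 (neg_one_pow_q hF), Matrix.one_apply]
      split_ifs <;> simp [hq0]
    · rw [coe_kg, Units.val_one, Matrix.det_kronecker, Matrix.det_one, one_pow, one_mul]
      change (cm F a0 a1 a2).det ^ _ = 1
      rw [cm_det h01 h02 h12, one_pow]

end C4

end Cfsg.Agent.H25.EPU
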