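import Cfsg.Agent.H25.EPU.CFour
import Cfsg.Agent.H487.EP.Wreath3
import Cfsg.Agent.H881.Wrap2
import Cfsg.Agent.H919.AschWreathForm

/-!
# S3499, row SU-C7: `Kills C7` (helper25), with helper487's `kill_wreath`
-/

set_option autoImplicit false
set_option linter.unusedSectionVars false

namespace Cfsg.Agent.H25.EPU

open Subgroup Cfsg.Agent.H284 Cfsg.Agent.H419.EP Cfsg.Agent.H458.EP Cfsg.Geo Matrix
open Cfsg.Agent.H919 (slotMat slotMat_commute slotMat_mul slotMat_one slotMat_add slotMat_transpose)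
open Cfsg.Agent.H487.EP (sl frA cjm BC NonSc kill_wreath)
open scoped MatrixGroups Kronecker

section

variable {F : Type} [Field F] {t k : ℕ}

/-- `p ⊗ b + (1 - p) ⊗ 1` in the slots `i0`, `i1` -/
def ph (i0 i1 : Fin t) (p b : Matrix (Fin k) (Fin k) F) : Matrix (Fin t → Fin k) (Fin t → Fin k) F :=
  slotMat i0 p * slotMat i1 b + slotMat i0 (1 - p)

theorem ph_mul {i0 i1 : Fin t} (h : i0 ≠ i1) {p : Matrix (Fin k) (Fin k) F} (hp : p * p = p)
    (b b' : Matrix (Fin k) (Fin k) F) : ph i0 i1 p b * ph i0 i1 p b' = ph i0 i1 p (b * b') := by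
  have h1 : p * (1 - p) = 0 := by rw [mul_sub, mul_one, hp, sub_self]
  have h2 : (1 - p) * p = 0 := by rw [sub_mul, one_mul, hp, sub_self]
  have h3 : (1 - p) * (1 - p) = 1 - p := by rw [mul_sub, h2, mul_one, sub_zero]
  have hc : ∀ u v : Matrix (Fin k) (Fin k) F, slotMat i0 u * slotMat i1 v = slotMat i1 v * slotMat i0 u :=
    fun u v => (slotMat_commute h u v).eq
  have hz : ∀ i : Fin t, slotMat i (0 : Matrix (Fin k) (Fin k) F) = 0 := by
    intro i
    have := Cfsg.Agent.H919.slotEmb_apply i (0 : Matrix (Fin k) (Fin k) F)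
    rw [map_zero] at this
    exact this.symm
  unfold ph
  calc (slotMat i0 p * slotMat i1 b + slotMat i0 (1 - p)) * (slotMat i0 p * slotMat i1 b' + slotMat i0 (1 - p))
      = slotMat i0 p * (slotMat i1 b * slotMat i0 p) * slotMat i1 b' +
        slotMat i0 p * (slotMat i1 b * slotMat i0 (1 - p)) +
        (slotMat i0 (1 - p) * slotMat i0 p * slotMat i1 b' + slotMat i0 (1 - p) * slotMat i0 (1 - p)) := by
        noncomm_ring
    _ = (slotMat i0 p * slotMat i0 p) * (slotMat i1 b * slotMat i1 b') +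
        (slotMat i0 p * slotMat i0 (1 - p)) * slotMat i1 b +
        (slotMat i0 (1 - p) * slotMat i0 p * slotMat i1 b' + slotMat i0 (1 - p) * slotMat i0 (1 - p)) := by
        rw [← hc, ← hc]
        noncomm_ring
    _ = _ := by
        rw [← slotMat_mul, ← slotMat_mul, ← slotMat_mul, ← slotMat_mul, ← slotMat_mul, hp, h1, h2, h3, hz, zero_mul,
          zero_mul, add_zero, zero_add]

theorem ph_one {i0 i1 : Fin t} (p : Matrix (Fin k) (Fin k) F) : ph i0 i1 p (1 : Matrix (Fin k) (Fin k) F) = 1 := by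
  unfold ph
  rw [slotMat_one, mul_one, ← slotMat_add, add_sub_cancel, slotMat_one]

theorem ph_transpose {i0 i1 : Fin t} (h : i0 ≠ i1) {p : Matrix (Fin k) (Fin k) F} (hpt : pᵀ = p)
    (b : Matrix (Fin k) (Fin k) F) : (ph i0 i1 p b)ᵀ = ph i0 i1 p bᵀ := by
  unfold ph
  rw [Matrix.transpose_add, Matrix.transpose_mul, slotMat_transpose, slotMat_transpose, slotMat_transpose,
    Matrix.transpose_sub, Matrix.transpose_one, hpt, (slotMat_commute h p bᵀ).eq]

theorem slot_pow {q : ℕ} (hq : q ≠ 0) (i : Fin t) (u : Matrix (Fin k) (Fin k) F) (hu : ∀ a b, u a b ^ q = u a b)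
    (x y : Fin t → Fin k) : slotMat i u x y ^ q = slotMat i u x y := by
  rw [slotMat, Cfsg.Agent.H919.pureMat_apply, ← Finset.prod_pow]
  refine Finset.prod_congr rfl fun j _ => ?_
  by_cases hj : j = i
  · subst hj
    rw [Function.update_self]
    exact hu _ _
  · rw [Function.update_of_ne hj, Matrix.one_apply]
    split_ifs <;> simp [hq]

theorem ph_map (σ : F ≃+* F) {i0 i1 : Fin t} {p b : Matrix (Fin k) (Fin k) F} (hp : p.map σ = p) (hb : b.map σ = b) :
    (ph i0 i1 p b).map σ = ph i0 i1 p b := by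
  unfold ph
  have h1 : (1 - p).map σ = 1 - p := by
    rw [Matrix.map_sub σ (fun a b => map_sub σ a b), Matrix.map_one σ (map_zero σ) (map_one σ), hp]
  rw [Matrix.map_add σ (fun a b => map_add σ a b)]
  have h2 : (slotMat i0 p * slotMat i1 b : Matrix (Fin t → Fin k) (Fin t → Fin k) F).map σ =
      (slotMat i0 p).map σ * (slotMat i1 b).map σ := Matrix.map_mul (f := (σ : F →+* F))
  rw [h2, Cfsg.Agent.H919.slotMat_map, Cfsg.Agent.H919.slotMat_map, Cfsg.Agent.H919.slotMat_map, hp, hb, h1]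

/-- `x` as a unit -/
def phg {i0 i1 : Fin t} (h : i0 ≠ i1) {p : Matrix (Fin k) (Fin k) F} (hp : p * p = p) (b : GL (Fin k) F) :
    GL (Fin t → Fin k) F where
  val := ph i0 i1 p (b : Matrix (Fin k) (Fin k) F)
  inv := ph i0 i1 p ((b⁻¹ : GL (Fin k) F) : Matrix (Fin k) (Fin k) F)
  val_inv := by rw [ph_mul h hp, Units.mul_inv, ph_one]
  inv_val := by rw [ph_mul h hp, Units.inv_mul, ph_one]

/-- `w` as a unit -/
def slg (i : Fin t) (c : GL (Fin k) F) : GL (Fin t → Fin k) F where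
  val := slotMat i (c : Matrix (Fin k) (Fin k) F)
  inv := slotMat i ((c⁻¹ : GL (Fin k) F) : Matrix (Fin k) (Fin k) F)
  val_inv := by rw [← slotMat_mul, Units.mul_inv, slotMat_one]
  inv_val := by rw [← slotMat_mul, Units.inv_mul, slotMat_one]

end

/-- the projection on one coordinate -/
def pj (F : Type) [Field F] {k : ℕ} (a0 : Fin k) : Matrix (Fin k) (Fin k) F :=
  Matrix.diagonal fun i => if i = a0 then 1 else 0

section

variable {F : Type} [Field F] {k : ℕ}

theorem pj_mul (a0 : Fin k) : pj F a0 * pj F a0 = pj F a0 := by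
  rw [pj, Matrix.diagonal_mul_diagonal]
  congr 1
  funext i
  split_ifs <;> simp

theorem pj_ne_zero (a0 : Fin k) : pj F a0 ≠ 0 := by
  intro h
  have := congrFun (congrFun h a0) a0
  simp [pj] at this

theorem pj_ne_one {a0 a1 : Fin k} (h : a0 ≠ a1) : pj F a0 ≠ 1 := by
  intro h'
  have := congrFun (congrFun h' a1) a1
  simp [pj, Ne.symm h] at this

theorem pj_transpose (a0 : Fin k) : (pj F a0)ᵀ = pj F a0 := Matrix.diagonal_transpose _

theorem pj_map (σ : F ≃+* F) (a0 : Fin k) : (pj F a0).map σ = pj F a0 := by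
  rw [pj, Matrix.diagonal_map (map_zero σ)]
  congr 1
  funext i
  split_ifs <;> simp

end

theorem cy_cube {κ : Type} [Fintype κ] [DecidableEq κ] {a0 a1 a2 : κ} (h01 : a0 ≠ a1) (h02 : a0 ≠ a2) (h12 : a1 ≠ a2) :
    cy a0 a1 a2 * cy a0 a1 a2 * cy a0 a1 a2 = 1 := by
  have h : (cy a0 a1 a2).IsThreeCycle := by
    rw [cy, Equiv.swap_comm]
    exact Equiv.Perm.isThreeCycle_swap_mul_swap_same (Ne.symm h01) h12 h02
  have h2 : (cy a0 a1 a2) ^ 3 = 1 := by
    rw [← h.orderOf]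
    exact pow_orderOf_eq_one _
  rw [← h2, pow_succ, pow_two]

theorem bm_cube {F : Type} [Field F] {κ : Type} [Fintype κ] [DecidableEq κ] {a0 a1 a2 : κ} (h01 : a0 ≠ a1)
    (h02 : a0 ≠ a2) (h12 : a1 ≠ a2) : bm F a0 a1 a2 * bm F a0 a1 a2 * bm F a0 a1 a2 = 1 := by
  rw [bm, ← Matrix.permMatrix_mul, ← Matrix.permMatrix_mul, ← mul_assoc, cy_cube h01 h02 h12, Matrix.permMatrix_one]

theorem bm_not_two {F : Type} [Field F] {κ : Type} [Fintype κ] [DecidableEq κ] {a0 a1 a2 : κ} (h01 : a0 ≠ a1)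
    (h02 : a0 ≠ a2) (h12 : a1 ≠ a2) (x y : F) (p : Matrix κ κ F) (hp : p * p = p) :
    bm F a0 a1 a2 ≠ x • (1 - p) + y • p := by
  intro h
  have e1 : p * (1 - p) = 0 := by rw [mul_sub, mul_one, hp, sub_self]
  have e2 : (1 - p) * p = 0 := by rw [sub_mul, one_mul, hp, sub_self]
  have e3 : (1 - p) * (1 - p) = 1 - p := by rw [mul_sub, e2, mul_one, sub_zero]
  have e4 : bm F a0 a1 a2 * bm F a0 a1 a2 = (x + y) • bm F a0 a1 a2 - (x * y) • (1 : Matrix κ κ F) := by
    have e5 : (1 : Matrix κ κ F) = (1 - p) + p := by abel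
    calc bm F a0 a1 a2 * bm F a0 a1 a2 = (x * x) • (1 - p) + (y * y) • p := by
          rw [h]
          simp only [add_mul, mul_add, Matrix.smul_mul, Matrix.mul_smul, e1, e2, e3, hp, smul_zero, add_zero,
            zero_add, smul_smul]
      _ = (x + y) • (x • (1 - p) + y • p) - (x * y) • ((1 - p) + p) := by
          simp only [smul_add, smul_smul]
          module
      _ = _ := by rw [← h, ← e5]
  have e6 := congrFun (congrFun e4 a0) a2
  rw [bm, ← Matrix.permMatrix_mul] at e6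
  have h2 : (cy a0 a1 a2 * cy a0 a1 a2) a0 = a2 := by
    rw [Equiv.Perm.mul_apply, cy_zero h02 h01, cy_one h02 h12]
  have h3 : cy a0 a1 a2 a0 ≠ a2 := by rw [cy_zero h02 h01]; exact h12
  simp [PEquiv.toMatrix_apply, h2, h3, Matrix.one_apply_ne h02] at e6

theorem kills_C7 : H588.EPU.Kills H588.EPU.C7 := by
  intro Q _ _ hs A Γ he F _ _ n q m hF hn h32 h43 M hM hle
  obtain ⟨k, t, e, P, f₁, hk, ht, -, hf₁, hT, rfl⟩ := hM
  obtain ⟨P', c, hc0, hcq, hform, hP'⟩ := H881.exists_std hF (by omega) e P f₁ hf₁ hT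
  rw [← hP'] at hle
  have hq0 : q ≠ 0 := by
    rintro rfl
    rw [zero_pow two_ne_zero] at hF
    exact Fintype.card_ne_zero hF
  obtain ⟨g, hg, hg'⟩ := H918.exists_rankOne_mem hF hn
  have hT' : m.hat A = tensorWreathSubgroup k t e P' ⊓ (Cfsg.GU n F q ⊓ Cfsg.Geo.specialLinear (Fin n) F) :=
    hat_eq m he.max (hle.trans inf_le_left) (H918.not_le_tensorWreathSubgroup hg hg' hk ht e P')
  set σ : F ≃+* F := LieClassical.HermBasic.conj hF with hσ
  set a0 : Fin k := ⟨0, by omega⟩ with ha0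
  set a1 : Fin k := ⟨1, by omega⟩ with ha1
  set a2 : Fin k := ⟨2, by omega⟩ with ha2
  have h01 : a0 ≠ a1 := by simp [ha0, ha1]
  have h02 : a0 ≠ a2 := by simp [ha0, ha2]
  have h12 : a1 ≠ a2 := by simp [ha1, ha2]
  set i0 : Fin t := ⟨0, by omega⟩ with hi0
  set i1 : Fin t := ⟨1, by omega⟩ with hi1
  have hi : i0 ≠ i1 := by simp [hi0, hi1]
  have hbq : ∀ a b, bm F a0 a1 a2 a b ^ q = bm F a0 a1 a2 a b := by
    intro a b
    rw [bm_apply]
    split_ifs <;> simp [hq0]
  have hbσ : (bm F a0 a1 a2).map σ = bm F a0 a1 a2 := by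
    ext a b
    exact hbq a b
  -- `x`
  set X : GL (Fin t → Fin k) F := phg hi (pj_mul (F := F) a0) (bg F a0 a1 a2) with hX
  have hXv : (X : Matrix (Fin t → Fin k) (Fin t → Fin k) F) = ph i0 i1 (pj F a0) (bm F a0 a1 a2) := rfl
  have hXorth : (X : Matrix (Fin t → Fin k) (Fin t → Fin k) F)ᵀ * (X : Matrix (Fin t → Fin k) (Fin t → Fin k) F) = 1 := by
    rw [hXv, ph_transpose hi (pj_transpose a0), ph_mul hi (pj_mul a0), bm_transpose_mul, ph_one]
  have hX3 : (X : Matrix (Fin t → Fin k) (Fin t → Fin k) F) * (X : Matrix (Fin t → Fin k) (Fin t → Fin k) F) *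
      (X : Matrix (Fin t → Fin k) (Fin t → Fin k) F) = 1 := by
    rw [hXv, ph_mul hi (pj_mul a0), ph_mul hi (pj_mul a0), bm_cube h01 h02 h12, ph_one]
  have hXdet : (X : Matrix (Fin t → Fin k) (Fin t → Fin k) F).det = 1 := by
    have d1 := congrArg Matrix.det hXorth
    rw [Matrix.det_mul, Matrix.det_transpose, Matrix.det_one] at d1
    have d2 := congrArg Matrix.det hX3
    rw [Matrix.det_mul, Matrix.det_mul, Matrix.det_one, d1, one_mul] at d2
    exact d2
  have hXS : fr e P' X ∈ Cfsg.GU n F q ⊓ Cfsg.Geo.specialLinear (Fin n) F := by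
    refine fr_mem hF hform X hXorth ?_ hXdet
    intro x y
    have h1 := ph_map σ (i0 := i0) (i1 := i1) (pj_map σ a0) hbσ
    exact congrFun (congrFun h1 x) y
  -- `w`
  set W : GL (Fin t → Fin k) F := slg i1 (cg F a0 a1 a2) with hW
  have hWv : (W : Matrix (Fin t → Fin k) (Fin t → Fin k) F) = slotMat i1 (cm F a0 a1 a2) := rfl
  have hWS : fr e P' W ∈ Cfsg.GU n F q ⊓ Cfsg.Geo.specialLinear (Fin n) F := by
    refine fr_mem hF hform W ?_ ?_ ?_
    · rw [hWv, slotMat_transpose, ← slotMat_mul, cm_transpose, cm_mul_cm, slotMat_one]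
    · intro x y
      exact slot_pow hq0 i1 _ (cm_pow a0 a1 a2 hq0 (neg_one_pow_q hF)) x y
    · rw [hWv]
      obtain ⟨s, rfl⟩ : ∃ s, t = s + 1 := ⟨t - 1, by omega⟩
      exact H881.slotMat_det (cm_det h01 h02 h12) i1
  refine kill_wreath he m e P' hT' (i0 := i0) (i1 := i1) hi (pj_mul a0) (pj_ne_zero a0) (pj_ne_one h01)
    (BC.of_inv (b := bm F a0 a1 a2) (bi := (bm F a0 a1 a2)ᵀ) (c := cg F a0 a1 a2) (bm_mul_transpose _ _ _)
      (cm_conj a0 a1 a2) (bm_sq_ne h01 h02 h12)) (fun x y p hp => bm_not_two h01 h02 h12 x y p hp)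
    hXS ?_ hWS (c₁ := 1) ?_ ?_
  · change frA e P' (ph i0 i1 (pj F a0) (bm F a0 a1 a2)) = _
    unfold ph
    rw [map_add, map_mul]
    rfl
  · rw [cjm]
    simp
  · rw [Units.val_one, map_one, one_mul]
    rfl

end Cfsg.Agent.H25.EPU
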