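import Cfsg.Agent.H881.Wrap
import Cfsg.Agent.H912.TensForm3
import Cfsg.Agent.H921.UnitWreath

/-!
# S3499, rows SU-C4 and SU-C7: orthonormal frames (helper25)

* `fr e P` : change of frame `GL κ F ≃* GL (Fin n) F`;
* `exists_std_tensor` : an orthonormal frame adapted to a tensor decomposition;
* `fr_mem` : orthogonal matrices of determinant one with entries fixed by `x ↦ x^q` give elements of `SU`.
-/

set_option autoImplicit false
set_option linter.unusedSectionVars false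

namespace Cfsg.Agent.H25.EPU

open Module Matrix Cfsg.Agent.ClassicalGeometry Cfsg.Agent.H919 Cfsg.Geo
open Cfsg.Agent.LieClassical.HermBasic
open scoped Kronecker MatrixGroups

section frame

variable {F : Type} [Field F] {n : ℕ} {κ : Type} [Fintype κ] [DecidableEq κ]

/-- change of frame -/
def fr (e : Fin n ≃ κ) (P : GL (Fin n) F) : GL κ F ≃* GL (Fin n) F :=
  (glReindex e.symm).trans (MulAut.conj P)

theorem coe_fr (e : Fin n ≃ κ) (P : GL (Fin n) F) (g : GL κ F) :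
    (fr e P g : Matrix (Fin n) (Fin n) F) = (P : Matrix (Fin n) (Fin n) F) *
      Matrix.reindexAlgEquiv F F e.symm (g : Matrix κ κ F) * ((P⁻¹ : GL (Fin n) F) : Matrix (Fin n) (Fin n) F) := rfl

theorem reindex_mulVec (e : Fin n ≃ κ) (M : Matrix κ κ F) (x : κ → F) :
    (Matrix.reindexAlgEquiv F F e.symm M) *ᵥ (x ∘ e) = (M *ᵥ x) ∘ e := by
  funext i
  simp only [Matrix.mulVec, dotProduct, Matrix.coe_reindexAlgEquiv, Matrix.reindex_apply,
    Matrix.submatrix_apply, Function.comp_apply, Equiv.symm_symm]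
  exact Equiv.sum_comp e (fun k => M (e i) k * x k)

theorem fr_mulVec (e : Fin n ≃ κ) (P : GL (Fin n) F) (g : GL κ F) (x : κ → F) :
    (fr e P g : Matrix (Fin n) (Fin n) F) *ᵥ ((P : Matrix (Fin n) (Fin n) F) *ᵥ (x ∘ e)) =
      (P : Matrix (Fin n) (Fin n) F) *ᵥ (((g : Matrix κ κ F) *ᵥ x) ∘ e) := by
  have e1 : ((P⁻¹ : GL (Fin n) F) : Matrix (Fin n) (Fin n) F) * (P : Matrix (Fin n) (Fin n) F) = 1 := by
    rw [← Units.val_mul, inv_mul_cancel, Units.val_one]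
  rw [coe_fr, Matrix.mulVec_mulVec, Matrix.mul_assoc, e1, Matrix.mul_one, ← Matrix.mulVec_mulVec, reindex_mulVec]

theorem fr_surj (e : Fin n ≃ κ) (P : GL (Fin n) F) (v : Fin n → F) :
    ∃ x : κ → F, (P : Matrix (Fin n) (Fin n) F) *ᵥ (x ∘ e) = v := by
  refine ⟨(((P⁻¹ : GL (Fin n) F) : Matrix (Fin n) (Fin n) F) *ᵥ v) ∘ e.symm, ?_⟩
  have h1 : ((((P⁻¹ : GL (Fin n) F) : Matrix (Fin n) (Fin n) F) *ᵥ v) ∘ e.symm) ∘ e =
      ((P⁻¹ : GL (Fin n) F) : Matrix (Fin n) (Fin n) F) *ᵥ v := by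
    funext i
    simp
  rw [h1, Matrix.mulVec_mulVec, ← Units.val_mul, mul_inv_cancel, Units.val_one, Matrix.one_mulVec]

theorem fr_det (e : Fin n ≃ κ) (P : GL (Fin n) F) (g : GL κ F) :
    (fr e P g : Matrix (Fin n) (Fin n) F).det = (g : Matrix κ κ F).det := by
  rw [coe_fr, Matrix.det_units_conj, Matrix.det_reindexAlgEquiv]

variable [Fintype F] {q : ℕ}

/-- orthogonal matrices with entries in the fixed field -/
theorem fr_mem (hF : Fintype.card F = q ^ 2) {e : Fin n ≃ κ} {P : GL (Fin n) F} {c : F}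
    (hform : ∀ x y : κ → F, Cfsg.hermForm n F q ((P : Matrix (Fin n) (Fin n) F) *ᵥ (x ∘ e))
        ((P : Matrix (Fin n) (Fin n) F) *ᵥ (y ∘ e)) = c * ∑ f, x f * (y f) ^ q)
    (g : GL κ F) (hg : (g : Matrix κ κ F)ᵀ * (g : Matrix κ κ F) = 1)
    (hgq : ∀ i j, (g : Matrix κ κ F) i j ^ q = (g : Matrix κ κ F) i j)
    (hdet : (g : Matrix κ κ F).det = 1) :
    fr e P g ∈ Cfsg.GU n F q ⊓ Cfsg.Geo.specialLinear (Fin n) F := by
  rw [H918.mem_SUg]
  refine ⟨fun u v => ?_, by rw [fr_det, hdet]⟩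
  obtain ⟨x, rfl⟩ := fr_surj e P u
  obtain ⟨y, rfl⟩ := fr_surj e P v
  rw [fr_mulVec, fr_mulVec, hform, hform]
  congr 1
  have h1 : ∀ f, ((g : Matrix κ κ F) *ᵥ y) f ^ q = ((g : Matrix κ κ F) *ᵥ (fun j => y j ^ q)) f := by
    intro f
    have h2 : ((g : Matrix κ κ F) *ᵥ y) f ^ q = conj hF (((g : Matrix κ κ F) *ᵥ y) f) := rfl
    rw [h2]
    simp only [Matrix.mulVec, dotProduct, map_sum, map_mul]
    refine Finset.sum_congr rfl fun j _ => ?_
    have h3 : conj hF ((g : Matrix κ κ F) f j) = (g : Matrix κ κ F) f j := hgq f j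
    rw [h3]
    rfl
  simp only [h1]
  change ((g : Matrix κ κ F) *ᵥ x) ⬝ᵥ ((g : Matrix κ κ F) *ᵥ (fun j => y j ^ q)) = x ⬝ᵥ (fun j => y j ^ q)
  rw [Matrix.dotProduct_mulVec, ← Matrix.mulVec_transpose, Matrix.mulVec_mulVec, hg, Matrix.one_mulVec]

/-- an orthonormal frame adapted to a tensor decomposition -/
theorem exists_std_tensor (hF : Fintype.card F = q ^ 2) {n₁ n₂ : ℕ} (e : Fin n ≃ Fin n₁ × Fin n₂)
    (P : GL (Fin n) F) (f₁ : (Fin n₁ → F) → (Fin n₁ → F) → F) (f₂ : (Fin n₂ → F) → (Fin n₂ → F) → F)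
    (hf₁ : IsUnitaryFormPow q f₁) (hf₂ : IsUnitaryFormPow q f₂)
    (hT : IsTensorFormStructure (fun x : F => x ^ q) (Cfsg.hermForm n F q) f₁ f₂ e P) :
    ∃ (P' : GL (Fin n) F) (c : F), c ≠ 0 ∧
      (∀ x y : Fin n₁ × Fin n₂ → F, Cfsg.hermForm n F q ((P' : Matrix (Fin n) (Fin n) F) *ᵥ (x ∘ e))
        ((P' : Matrix (Fin n) (Fin n) F) *ᵥ (y ∘ e)) = c * ∑ f, x f * (y f) ^ q) ∧
      tensorProductSubgroup n₁ n₂ e P' = tensorProductSubgroup n₁ n₂ e P := by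
  have hf₁' := (H921.isUnitaryFormPow_iff hF).mp hf₁
  have hf₂' := (H921.isUnitaryFormPow_iff hF).mp hf₂
  obtain ⟨B₁, hB₁⟩ := H921.exists_isometry hF hf₁'
  obtain ⟨B₂, hB₂⟩ := H921.exists_isometry hF hf₂'
  have hB₁' := H921.gram_of_isometry hF hf₁' hB₁
  have hB₂' := H921.gram_of_isometry hF hf₂' hB₂
  have hT' : IsTensorFormStructure (conj hF) (Cfsg.hermForm n F q) f₁ f₂ e P := hT
  obtain ⟨c, hc0, hc⟩ := H912.isTensorFormStructure_chBasis hT' B₁ B₂ hB₁' hB₂'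
  refine ⟨H912.chBasis e P B₁ B₂, c, hc0, fun x y => ?_, H912.tensorProductSubgroup_chBasis e P B₁ B₂⟩
  rw [hc, H881.gram_herm hF, H881.gram_herm hF, Matrix.one_kronecker_one]
  congr 1
  unfold formOfGram
  refine Finset.sum_congr rfl fun f _ => ?_
  rw [Finset.sum_eq_single f]
  · rw [Matrix.one_apply_eq, mul_one]
    rfl
  · intro g _ hg
    rw [Matrix.one_apply_ne (Ne.symm hg), mul_zero, zero_mul]
  · intro h; exact absurd (Finset.mem_univ _) h

end frame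

end Cfsg.Agent.H25.EPU
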